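import Cfsg.Agent.Lib.TC.Data.Fi23a.Arr
import Cfsg.Agent.Lib.TC.Data.Fi23a.K0
import Cfsg.Agent.Lib.TC.Data.Fi23a.K1
import Cfsg.Agent.Lib.TC.Data.Fi23a.K2
import Cfsg.Agent.Lib.TC.Data.Fi23a.K3
import Cfsg.Agent.Lib.TC.Data.Fi23a.K4
import Cfsg.Agent.Lib.TC.Data.Fi23a.K5
import Cfsg.Agent.Lib.TC.Data.Fi23a.K6
import Cfsg.Agent.Lib.TC.Data.Fi23a.K7
import Cfsg.Agent.Lib.TC.Data.Fi23a.K8
import Cfsg.Agent.Lib.TC.Data.Fi23a.K9
import Cfsg.Agent.Lib.TC.Data.Fi23a.K10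
import Cfsg.Agent.Lib.TC.Data.Fi23a.K11
import Cfsg.Agent.Lib.TC.Data.Fi23a.K12
import Cfsg.Agent.Lib.TC.Data.Fi23a.K13
import Cfsg.Agent.Lib.TC.Data.Fi23a.K14
import Cfsg.Agent.Lib.TC.Data.Fi23a.P0
import Cfsg.Agent.Lib.TC.Data.Fi23a.P1
import Cfsg.Agent.Lib.TC.Data.Fi23a.P2
import Cfsg.Agent.Lib.TC.Data.Fi23a.P3
import Cfsg.Agent.Lib.TC.Data.Fi23a.P4
import Cfsg.Agent.Lib.TC.Data.Fi23a.P5
import Cfsg.Agent.Lib.TC.Data.Fi23a.P6
import Cfsg.Agent.Lib.TC.Data.Fi23a.P7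
import Cfsg.Agent.Lib.TC.Data.Fi23a.P8
import Cfsg.Agent.Lib.TC.Data.Fi23a.P9
import Cfsg.Agent.Lib.TC.Data.Fi23a.P10
import Cfsg.Agent.Lib.TC.Data.Fi23a.P11
import Cfsg.Agent.Lib.TC.Data.Fi23a.P12
import Cfsg.Agent.Lib.TC.Data.Fi23a.P13
import Cfsg.Agent.Lib.TC.Data.Fi23a.P14
import Cfsg.Agent.Lib.TC.Data.Fi23a.P15
import Cfsg.Agent.Lib.TC.Data.Fi23a.P16
import Cfsg.Agent.Lib.TC.Data.Fi23a.P17
import Cfsg.Agent.Lib.TC.Data.Fi23a.P18
import Cfsg.Agent.Lib.TC.Data.Fi23a.P19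
import Cfsg.Agent.Lib.TC.Data.Fi23a.P20
import Cfsg.Agent.Lib.TC.Data.Fi23a.P21
import Cfsg.Agent.Lib.TC.Data.Fi23a.P22
import Cfsg.Agent.Lib.TC.Data.Fi23a.P23
import Cfsg.Agent.Lib.TC.Data.Fi23a.P24
import Cfsg.Agent.Lib.TC.Data.Fi23a.P25
import Cfsg.Agent.Lib.TC.Data.Fi23a.P26
import Cfsg.Agent.Lib.TC.Data.Fi23a.P27
import Cfsg.Agent.Lib.TC.Data.Fi23a.P28
import Cfsg.Agent.Lib.TC.Data.Fi23a.P29
import Cfsg.Agent.Lib.TC.Data.Fi23a.P30
import Cfsg.Agent.Lib.TC.Data.Fi23a.P31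
import Cfsg.Agent.Lib.TC.Data.Fi23a.P32
import Cfsg.Agent.Lib.TC.Data.Fi23a.P33
import Cfsg.Agent.Lib.TC.Data.Fi23a.P34
import Cfsg.Agent.Lib.TC.Data.Fi23a.P35
import Cfsg.Agent.Lib.TC.Data.Fi23a.P36
import Cfsg.Agent.Lib.TC.Data.Fi23a.P37
import Cfsg.Agent.Lib.TC.Data.Fi23a.P38
import Cfsg.Agent.Lib.TC.Data.Fi23a.P39
import Cfsg.Agent.Lib.TC.Data.Fi23a.P40
import Cfsg.Agent.Lib.TC.Data.Fi23a.P41
import Cfsg.Agent.Lib.TC.Data.Fi23a.P42
import Cfsg.Agent.Lib.TC.Data.Fi23a.P43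
import Cfsg.Agent.Lib.TC.Data.Fi23a.P44
import Cfsg.Agent.Lib.TC.Data.Fi23a.P45
import Cfsg.Agent.Lib.TC.Data.Fi23a.P46
import Cfsg.Agent.Lib.TC.Data.Fi23a.P47
import Cfsg.Agent.Lib.TC.Data.Fi23a.P48
import Cfsg.Agent.Lib.TC.Data.Fi23a.P49
import Cfsg.Agent.Lib.TC.Data.Fi23a.P50
import Cfsg.Agent.Lib.TC.Data.Fi23a.P51
import Cfsg.Agent.Lib.TC.Data.Fi23a.P52
import Cfsg.Agent.Lib.TC.Data.Fi23a.P53
import Cfsg.Agent.Lib.TC.Data.Fi23a.P54
import Cfsg.Agent.Lib.TC.Data.Fi23a.P55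
import Cfsg.Agent.Lib.TC.Data.Fi23a.P56
import Cfsg.Agent.Lib.TC.Data.Fi23a.P57
import Cfsg.Agent.Lib.TC.Data.Fi23a.P58
import Cfsg.Agent.Lib.TC.Data.Fi23a.P59
import Cfsg.Agent.Lib.TC.Data.Fi23a.P60
import Cfsg.Agent.Lib.TC.Data.Fi23a.P61
import Cfsg.Agent.Lib.TC.Data.Fi23a.P62
import Cfsg.Agent.Lib.TC.Data.Fi23a.P63
import Cfsg.Agent.Lib.TC.Data.Fi23a.P64

set_option autoImplicit false

namespace Cfsg.Agent.Lib.TC.Data.Fi23a

open Cfsg.Agent.Lib.TC

open Cfsg.Spor Cfsg.Spor.Fi23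

theorem doneK : Done Fk 488704 := by
  have h0 := Done.zero Fk
  have h1 : Done Fk 32581 := Done.step h0 K0_ok rfl
  have h2 : Done Fk 65162 := Done.step h1 K1_ok rfl
  have h3 : Done Fk 97743 := Done.step h2 K2_ok rfl
  have h4 : Done Fk 130324 := Done.step h3 K3_ok rfl
  have h5 : Done Fk 162905 := Done.step h4 K4_ok rfl
  have h6 : Done Fk 195486 := Done.step h5 K5_ok rfl
  have h7 : Done Fk 228067 := Done.step h6 K6_ok rfl
  have h8 : Done Fk 260648 := Done.step h7 K7_ok rfl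
  have h9 : Done Fk 293229 := Done.step h8 K8_ok rfl
  have h10 : Done Fk 325810 := Done.step h9 K9_ok rfl
  have h11 : Done Fk 358391 := Done.step h10 K10_ok rfl
  have h12 : Done Fk 390972 := Done.step h11 K11_ok rfl
  have h13 : Done Fk 423553 := Done.step h12 K12_ok rfl
  have h14 : Done Fk 456134 := Done.step h13 K13_ok rfl
  have h15 : Done Fk 488704 := Done.step h14 K14_ok rfl
  exact h15

theorem doneP : Done Fp 31671 := by
  have h0 := Done.zero Fp
  have h1 : Done Fp 488 := Done.step h0 P0_ok rfl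
  have h2 : Done Fp 976 := Done.step h1 P1_ok rfl
  have h3 : Done Fp 1464 := Done.step h2 P2_ok rfl
  have h4 : Done Fp 1952 := Done.step h3 P3_ok rfl
  have h5 : Done Fp 2440 := Done.step h4 P4_ok rfl
  have h6 : Done Fp 2928 := Done.step h5 P5_ok rfl
  have h7 : Done Fp 3416 := Done.step h6 P6_ok rfl
  have h8 : Done Fp 3904 := Done.step h7 P7_ok rfl
  have h9 : Done Fp 4392 := Done.step h8 P8_ok rfl
  have h10 : Done Fp 4880 := Done.step h9 P9_ok rfl
  have h11 : Done Fp 5368 := Done.step h10 P10_ok rfl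
  have h12 : Done Fp 5856 := Done.step h11 P11_ok rfl
  have h13 : Done Fp 6344 := Done.step h12 P12_ok rfl
  have h14 : Done Fp 6832 := Done.step h13 P13_ok rfl
  have h15 : Done Fp 7320 := Done.step h14 P14_ok rfl
  have h16 : Done Fp 7808 := Done.step h15 P15_ok rfl
  have h17 : Done Fp 8296 := Done.step h16 P16_ok rfl
  have h18 : Done Fp 8784 := Done.step h17 P17_ok rfl
  have h19 : Done Fp 9272 := Done.step h18 P18_ok rfl
  have h20 : Done Fp 9760 := Done.step h19 P19_ok rfl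
  have h21 : Done Fp 10248 := Done.step h20 P20_ok rfl
  have h22 : Done Fp 10736 := Done.step h21 P21_ok rfl
  have h23 : Done Fp 11224 := Done.step h22 P22_ok rfl
  have h24 : Done Fp 11712 := Done.step h23 P23_ok rfl
  have h25 : Done Fp 12200 := Done.step h24 P24_ok rfl
  have h26 : Done Fp 12688 := Done.step h25 P25_ok rfl
  have h27 : Done Fp 13176 := Done.step h26 P26_ok rfl
  have h28 : Done Fp 13664 := Done.step h27 P27_ok rfl
  have h29 : Done Fp 14152 := Done.step h28 P28_ok rfl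
  have h30 : Done Fp 14640 := Done.step h29 P29_ok rfl
  have h31 : Done Fp 15128 := Done.step h30 P30_ok rfl
  have h32 : Done Fp 15616 := Done.step h31 P31_ok rfl
  have h33 : Done Fp 16104 := Done.step h32 P32_ok rfl
  have h34 : Done Fp 16592 := Done.step h33 P33_ok rfl
  have h35 : Done Fp 17080 := Done.step h34 P34_ok rfl
  have h36 : Done Fp 17568 := Done.step h35 P35_ok rfl
  have h37 : Done Fp 18056 := Done.step h36 P36_ok rfl
  have h38 : Done Fp 18544 := Done.step h37 P37_ok rfl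
  have h39 : Done Fp 19032 := Done.step h38 P38_ok rfl
  have h40 : Done Fp 19520 := Done.step h39 P39_ok rfl
  have h41 : Done Fp 20008 := Done.step h40 P40_ok rfl
  have h42 : Done Fp 20496 := Done.step h41 P41_ok rfl
  have h43 : Done Fp 20984 := Done.step h42 P42_ok rfl
  have h44 : Done Fp 21472 := Done.step h43 P43_ok rfl
  have h45 : Done Fp 21960 := Done.step h44 P44_ok rfl
  have h46 : Done Fp 22448 := Done.step h45 P45_ok rfl
  have h47 : Done Fp 22936 := Done.step h46 P46_ok rfl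
  have h48 : Done Fp 23424 := Done.step h47 P47_ok rfl
  have h49 : Done Fp 23912 := Done.step h48 P48_ok rfl
  have h50 : Done Fp 24400 := Done.step h49 P49_ok rfl
  have h51 : Done Fp 24888 := Done.step h50 P50_ok rfl
  have h52 : Done Fp 25376 := Done.step h51 P51_ok rfl
  have h53 : Done Fp 25864 := Done.step h52 P52_ok rfl
  have h54 : Done Fp 26352 := Done.step h53 P53_ok rfl
  have h55 : Done Fp 26840 := Done.step h54 P54_ok rfl
  have h56 : Done Fp 27328 := Done.step h55 P55_ok rfl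
  have h57 : Done Fp 27816 := Done.step h56 P56_ok rfl
  have h58 : Done Fp 28304 := Done.step h57 P57_ok rfl
  have h59 : Done Fp 28792 := Done.step h58 P58_ok rfl
  have h60 : Done Fp 29280 := Done.step h59 P59_ok rfl
  have h61 : Done Fp 29768 := Done.step h60 P60_ok rfl
  have h62 : Done Fp 30256 := Done.step h61 P61_ok rfl
  have h63 : Done Fp 30744 := Done.step h62 P62_ok rfl
  have h64 : Done Fp 31232 := Done.step h63 P63_ok rfl
  have h65 : Done Fp 31671 := Done.step h64 P64_ok rfl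
  exact h65

def subsL : List (FreeGroup Gen) := [a,b,c,d,e,f,g,h,i]

theorem hsubs (s : FreeGroup Gen) : s ∈ ({a, b, c, d, e, f, g, h, i} : Set (FreeGroup Gen)) ↔ s ∈ subsL := by
  simp [subsL]

theorem hsubW : subW = subsL.map (encW G.Fi23.sys.code G.Fi23.sys.inv) := by decide +kernel

noncomputable def A : SubWords G.Fi23.sys ({a, b, c, d, e, f, g, h, i} : Set (FreeGroup Gen)) :=
  G.Fi23.sys.subWordsOfList subsL subW hsubW hsubs

theorem hLL : ∀ w ∈ G.Fi23.relWords, w ∈ rR ∨ rotR w ∈ rR ∨ isPseudo 10 G.Fi23.inv w = true := by decide +kernel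

theorem hrelW : ∀ w ∈ words.take 57, isPseudo 10 G.Fi23.inv w = true ∨ w ∈ G.Fi23.relWords := by decide +kernel

theorem hsubD : ∀ w ∈ words.drop 57, w ∈ subW := by decide +kernel

theorem hlett : ∀ w ∈ words, ∀ g ∈ w, g < 11 := by decide +kernel

theorem hwlS : ∀ j, j < 9 → wordAt wordsL j ∈ subW := by decide +kernel

theorem hwlL : ∀ j, j < 19 → ∀ g ∈ wordAt wordsL j, g < 10 := by decide +kernel

theorem hzero : relsOk tT subW 0 = true := by decide +kernel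

theorem hnm0 : aN 0 = 0 := by decide +kernel

noncomputable def checked : Sys.Checked G.Fi23.sys ({a, b, c, d, e, f, g, h, i} : Set (FreeGroup Gen)) cert where
  n := 31671
  T := tT
  R := rR
  words := words
  nm := aN
  A := A
  WL := wordAt wordsL
  nsub := 9
  nW := 19
  par := par
  gw := gw
  ivs := ivs
  hF := doneP
  hn := by decide
  hL := fun r hr => hLL _ (G.Fi23.mem_relWords hr)
  hW := rfl
  hep := rfl
  hsz := rfl
  hnW := by decide +kernel
  hnrel := by decide +kernel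
  hletters := hlett
  hrel := fun w hw => (hrelW w hw).imp id G.Fi23.of_mem_relWords
  hsub := hsubD
  hE := fun k hk => guard_zero 488704 _ k hk
  hcheck := doneK
  hnm0 := hnm0
  hWLs := hwlS
  hWLl := hwlL
  h0 := hzero

end Cfsg.Agent.Lib.TC.Data.Fi23a
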